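import Cfsg.Agent.H7.TL2

/-! H7.DL: maximal subgroups and derived lengths in Fischer models. -/

namespace H7
open Subgroup
open scoped commutatorElement

universe u
variable {G : Type u} [Group G]

theorem norm_le_zp [Finite G] {A : Set G} {z : G} (hz : z ∈ centralizer A) (c : Nat.card (centralizer A) ≤ orderOf z) :
    normalizer A ≤ normalizer (zpowers z : Set G) := fun g hg => by
  have e : zpowers z = centralizer A := eq_of_le_of_card_ge (zpowers_le.2 hz) (by rwa [Nat.card_zpowers])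
  have k : ∀ g ∈ normalizer A, ∀ x ∈ centralizer A, g * x * g⁻¹ ∈ centralizer A := fun g hg x hx s hs => by
    have := hx _ ((mem_set_normalizer_iff.1 (inv_mem hg) s).1 hs)
    calc s * (g * x * g⁻¹) = g * (g⁻¹ * s * g⁻¹⁻¹ * x) * g⁻¹ := by group
      _ = g * x * g⁻¹ * s := by rw [this]; group
  rw [e]
  exact mem_set_normalizer_iff.2 fun x => ⟨k g hg x, fun h => by simpa [mul_assoc] using k _ (inv_mem hg) _ h⟩

/-- the derived series of a subgroup, inside the group -/
def DS (H : Subgroup G) (n : ℕ) : Subgroup G := (derivedSeries H n).map H.subtype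

theorem DS_zero {H : Subgroup G} {x : G} (h : x ∈ H) : x ∈ DS H 0 := ⟨⟨x, h⟩, mem_top _, rfl⟩

theorem DS_step {H : Subgroup G} {n : ℕ} {x y h w : G} (hx : x ∈ DS H n) (hh : h ∈ H) (e : h * x = y * h) (e' : w * (y * x) = x * y) :
    w ∈ DS H (n + 1) := by
  obtain ⟨x, hx, rfl⟩ := hx
  refine ⟨⁅x, ⟨h, hh⟩ * x * ⟨h, hh⟩⁻¹⁆, commutator_mem_commutator hx ((derivedSeries_normal H n).conj_mem _ hx _), ?_⟩
  have a : y = h * x * h⁻¹ := eq_mul_inv_of_mul_eq e.symm
  rw [eq_mul_inv_of_mul_eq e', a]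
  simp [commutatorElement_def, mul_assoc]

theorem DS_ne {H : Subgroup G} (s : Group.IsSolvable H) {n : ℕ} {x : G} (hx : x ∈ DS H n) (h : x ≠ 1) :
    derivedSeries H (n + 1) ≠ derivedSeries H n := fun e => by
  obtain ⟨m, hm⟩ := s.solvable
  have k : ∀ i, derivedSeries H (n + i) = derivedSeries H n := fun i => by
    induction i with
    | zero => rfl
    | succ i ih => rw [← add_assoc, derivedSeries_succ, ih, ← derivedSeries_succ, e]
  have : derivedSeries H n = ⊥ := eq_bot_iff.2 ((k m).ge.trans ((derivedSeries_antitone H (Nat.le_add_left m n)).trans hm.le))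
  obtain ⟨x, hx, rfl⟩ := hx
  exact h (by rw [mem_bot.1 (this.le hx)]; rfl)

namespace FD
variable (P : FD)
noncomputable def topOK (f : ℕ) (W : List (List ℕ)) (r : ℕ) (q : Pc) : Bool :=
  band (P.okq q) (force (growN P.Ns (tw q :: W) r (Nat.lor f (bit (P.pt q)))) fun m => allLt (fun a => tb m (P.lp a)) P.k)
end FD

namespace FM
variable {P : FD} (F : FM P G)

theorem ds_step {eq : List ℕ → List ℕ → Bool} (he : ∀ v w, eq v w = true → wev F.gs v = wev F.gs w) {H : Subgroup G} {n : ℕ}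
    {x : List ℕ} (hx : F.ev x ∈ DS H n) {h : List ℕ} (hh : F.ev h ∈ H) (y w : List ℕ)
    (k : band (eq (appL h x) (appL y h)) (eq (appL w (appL y x)) (appL x y)) = true) : F.ev w ∈ DS H (n + 1) := by
  rw [band_eq, Bool.and_eq_true] at k
  refine DS_step hx hh (y := F.ev y) ((F.ev_app _ _).symm.trans ((he _ _ k.1).trans (F.ev_app _ _))) ?_
  rw [← F.ev_app, ← F.ev_app, ← F.ev_app]; exact he _ _ k.2

theorem coatom_of {H : Subgroup G} {f : ℕ} (hf : F.S f ⊆ H) (hN : normalizer (F.S f) ≤ H) (hH : H ≠ ⊤)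
    {W : List (List ℕ)} (hW : ∀ w ∈ W, F.ev w ∈ H) (qs : List Pc) (r r' : ℕ)
    (cv : H7.sub P.all (Nat.lor f (growN P.Ns W r (P.bm qs))) = true) (gn : allL (P.topOK f W r') qs = true) : IsCoatom H :=
  ⟨hH, fun M hM => by
    by_cases h : ∃ x ∈ F.D, x ∈ M ∧ x ∉ F.S f
    · obtain ⟨x, hx, hm, n⟩ := h
      have ok : ∀ q ∈ qs, P.okq q = true := fun q hq => by
        have := allL_iff.1 gn q hq
        rw [FD.topOK, band_eq, Bool.and_eq_true] at this; exact this.1
      obtain ⟨g, hg, e⟩ := F.grow hW (((F.S_lor _ _).le (F.S_mono cv (F.S_all.ge hx))).resolve_left n)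
      obtain ⟨q, hq, e⟩ := List.mem_map.1 ((F.mem_bm ok).1 e)
      have hq' : F.e q ∈ M := e ▸ mul_mem (mul_mem (hM.le hg) hm) (inv_mem (hM.le hg))
      have t := allL_iff.1 gn q hq
      rw [FD.topOK, band_eq, Bool.and_eq_true, force_eq] at t
      refine F.gen M fun a ha => ?_
      have u := allLt_iff.1 t.2 a ha
      rw [tb_eq, ← F.mem_S (F.hl a ha).1, (F.hl a ha).2] at u
      obtain ⟨g, hg, e⟩ := F.grow (H := M) (List.forall_mem_cons.2 ⟨F.ev_tw t.1 ▸ hq', fun w hw => hM.le (hW w hw)⟩) u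
      rw [F.S_lor, F.S_bit t.1] at e
      have : g * F.gs a * g⁻¹ ∈ M := e.elim (fun e => hM.le (hf e)) fun e => Set.mem_singleton_iff.1 e ▸ hq'
      exact (mul_mem_cancel_left hg).1 ((mul_mem_cancel_right (inv_mem hg)).1 this)
    · have k : ∀ g ∈ M, ∀ x ∈ F.S f, g * x * g⁻¹ ∈ F.S f := fun g hg x hx => by
        by_contra n
        exact h ⟨_, F.conj_mem g (F.S_sub _ hx), mul_mem (mul_mem hg (hM.le (hf hx))) (inv_mem hg), n⟩
      exact absurd (fun g hg => hN (mem_set_normalizer_iff.2 fun x =>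
        ⟨k g hg x, fun h => by simpa [mul_assoc] using k _ (inv_mem hg) _ h⟩)) hM.not_ge⟩

end FM
end H7
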